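import Cfsg.Agent.H609.TH.Expl
import Cfsg.Agent.H51.Tools

/-!
# S3938: explicit generation, Sylow subgroups `p ^ 2` and `p ^ (1 + 2)` (helper767)

`goodI_heis`: `x ^ p = y ^ p = z ^ p = 1`, `y x = x y z`, `z` commutes with `x` and `y`; the elements `z` (if `≠ 1`), `x` and
`x ^ r y` (`r < p`) are good, so are all nontrivial elements of `⟨x, y⟩`.
`goodI_of_pair_sq`, `goodI_of_pair_cube`: all the elements of order `p` of a group whose Sylow `p`-subgroup is `⟨x, y⟩`.
-/

set_option autoImplicit false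

namespace Cfsg.Agent.H767.SprHeis

open Subgroup Cfsg.Agent.H609.TH
open scoped commutatorElement

universe u

variable {T : Type u} [Group T]

section form

variable {x y z : T}

theorem y_xpow (hyx : y * x = x * y * z) (czx : z * x = x * z) (i : ℕ) : y * x ^ i = x ^ i * y * z ^ i := by
  have hc : ∀ n, z ^ n * x = x * z ^ n := fun n => ((show Commute z x from czx).pow_left n).eq
  induction i with
  | zero => simp
  | succ i ih =>
    calc y * x ^ (i + 1) = (y * x ^ i) * x := by rw [pow_succ]; group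
      _ = x ^ i * y * (z ^ i * x) := by rw [ih]; group
      _ = x ^ i * (y * x) * z ^ i := by rw [hc]; group
      _ = x ^ i * (x * y * z) * z ^ i := by rw [hyx]
      _ = x ^ (i + 1) * y * z ^ (i + 1) := by rw [pow_succ x, pow_succ' z]; group

theorem ypow_xpow (hyx : y * x = x * y * z) (czx : z * x = x * z) (czy : z * y = y * z) (i j : ℕ) :
    y ^ j * x ^ i = x ^ i * y ^ j * z ^ (i * j) := by
  have hc : ∀ n m, z ^ n * y ^ m = y ^ m * z ^ n := fun n m => ((show Commute z y from czy).pow_pow n m).eq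
  induction j with
  | zero => simp
  | succ j ih =>
    calc y ^ (j + 1) * x ^ i = y * (y ^ j * x ^ i) := by rw [pow_succ']; group
      _ = (y * x ^ i) * (y ^ j * z ^ (i * j)) := by rw [ih]; group
      _ = x ^ i * y * (z ^ i * y ^ j) * z ^ (i * j) := by rw [y_xpow hyx czx]; group
      _ = x ^ i * y * (y ^ j * z ^ i) * z ^ (i * j) := by rw [hc]
      _ = x ^ i * y ^ (j + 1) * z ^ (i * (j + 1)) := by
        rw [pow_succ' y, Nat.mul_succ, add_comm (i * j) i, pow_add]
        simp only [mul_assoc]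

/-- products -/
theorem form_mul (hyx : y * x = x * y * z) (czx : z * x = x * z) (czy : z * y = y * z) (i j k i' j' k' : ℕ) :
    (x ^ i * y ^ j * z ^ k) * (x ^ i' * y ^ j' * z ^ k') = x ^ (i + i') * y ^ (j + j') * z ^ (i' * j + k + k') := by
  have h1 : ∀ n m, z ^ n * x ^ m = x ^ m * z ^ n := fun n m => ((show Commute z x from czx).pow_pow n m).eq
  have h2 : ∀ n m, z ^ n * y ^ m = y ^ m * z ^ n := fun n m => ((show Commute z y from czy).pow_pow n m).eq
  calc (x ^ i * y ^ j * z ^ k) * (x ^ i' * y ^ j' * z ^ k')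
      = x ^ i * y ^ j * (z ^ k * x ^ i') * y ^ j' * z ^ k' := by simp only [mul_assoc]
    _ = x ^ i * (y ^ j * x ^ i') * (z ^ k * y ^ j') * z ^ k' := by rw [h1]; simp only [mul_assoc]
    _ = x ^ i * (x ^ i' * y ^ j * z ^ (i' * j)) * (y ^ j' * z ^ k) * z ^ k' := by
      rw [h2, ypow_xpow hyx czx czy]
    _ = x ^ i * x ^ i' * y ^ j * (z ^ (i' * j) * y ^ j') * z ^ k * z ^ k' := by simp only [mul_assoc]
    _ = x ^ (i + i') * y ^ (j + j') * z ^ (i' * j + k + k') := by
      rw [h2, pow_add x, pow_add y, pow_add z, pow_add z]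
      simp only [mul_assoc]

/-- powers -/
theorem form_pow (hyx : y * x = x * y * z) (czx : z * x = x * z) (czy : z * y = y * z) (i j k t : ℕ) :
    ∃ m, (x ^ i * y ^ j * z ^ k) ^ t = x ^ (i * t) * y ^ (j * t) * z ^ m := by
  induction t with
  | zero => exact ⟨0, by simp⟩
  | succ t ih =>
    obtain ⟨m, hm⟩ := ih
    rw [pow_succ, hm, form_mul hyx czx czy]
    exact ⟨_, rfl⟩

/-- the elements of `⟨x, y⟩` -/
theorem exists_form {p : ℕ} (hp : 0 < p) (hx : x ^ p = 1) (hy : y ^ p = 1) (hyx : y * x = x * y * z)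
    (czx : z * x = x * z) (czy : z * y = y * z) {g : T} (hg : g ∈ closure ({x, y} : Set T)) :
    ∃ i j k : ℕ, g = x ^ i * y ^ j * z ^ k := by
  have hl : ∀ (a b : ℕ) (g : T), (∃ i j k : ℕ, g = x ^ i * y ^ j * z ^ k) →
      ∃ i j k : ℕ, x ^ a * y ^ b * g = x ^ i * y ^ j * z ^ k := by
    rintro a b _ ⟨i, j, k, rfl⟩
    have h1 := form_mul hyx czx czy a b 0 i j k
    rw [pow_zero, mul_one] at h1
    exact ⟨_, _, _, h1⟩
  have hxi : x⁻¹ = x ^ (p - 1) := by
    rw [inv_eq_iff_mul_eq_one, ← pow_succ', Nat.sub_add_cancel hp, hx]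
  have hyi : y⁻¹ = y ^ (p - 1) := by
    rw [inv_eq_iff_mul_eq_one, ← pow_succ', Nat.sub_add_cancel hp, hy]
  induction hg using Subgroup.closure_induction_left with
  | one => exact ⟨0, 0, 0, by simp⟩
  | mul_left a ha b _ ih =>
    rcases ha with rfl | rfl
    · have := hl 1 0 b ih
      rwa [pow_one, pow_zero, mul_one] at this
    · have := hl 0 1 b ih
      rwa [pow_one, pow_zero, one_mul] at this
  | inv_mul_cancel a ha b _ ih =>
    rcases ha with rfl | rfl
    · have := hl (p - 1) 0 b ih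
      rwa [pow_zero, mul_one, ← hxi] at this
    · have := hl 0 (p - 1) b ih
      rwa [pow_zero, one_mul, ← hyi] at this

/-- **All the nontrivial elements of `⟨x, y⟩` are good.** -/
theorem goodI_heis {p : ℕ} (hp : p.Prime) (hx : x ^ p = 1) (hy : y ^ p = 1) (hz : z ^ p = 1)
    (hyx : y * x = x * y * z) (czx : z * x = x * z) (czy : z * y = y * z)
    (gz : z ≠ 1 → GoodI z) (gx : GoodI x) (gy : ∀ r < p, GoodI (x ^ r * y)) {g : T}
    (hg : g ∈ closure ({x, y} : Set T)) (hg1 : g ≠ 1) : GoodI g := by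
  obtain ⟨i, j, k, rfl⟩ := exists_form hp.pos hx hy hyx czx czy hg
  by_cases hj : p ∣ j
  · have hyj : y ^ j = 1 := by
      obtain ⟨c, rfl⟩ := hj
      rw [pow_mul, hy, one_pow]
    rw [hyj, mul_one] at hg1 ⊢
    by_cases hi : p ∣ i
    · have hxi : x ^ i = 1 := by
        obtain ⟨c, rfl⟩ := hi
        rw [pow_mul, hx, one_pow]
      rw [hxi, one_mul] at hg1 ⊢
      have hk : ¬ p ∣ k := by
        rintro ⟨c, rfl⟩
        exact hg1 (by rw [pow_mul, hz, one_pow])
      obtain ⟨t, -, ht⟩ := Nat.exists_mul_mod_eq_one_of_coprime ((Nat.Prime.coprime_iff_not_dvd hp).2 hk).symm hp.one_lt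
      refine GoodI.of_pow t ?_
      rw [← pow_mul, pow_eq_pow_mod _ hz, ht, pow_one]
      refine gz fun h => hg1 ?_
      rw [h, one_pow]
    · obtain ⟨t, -, ht⟩ := Nat.exists_mul_mod_eq_one_of_coprime ((Nat.Prime.coprime_iff_not_dvd hp).2 hi).symm hp.one_lt
      refine GoodI.of_pow t ?_
      obtain ⟨m, hm⟩ := form_pow hyx czx czy i 0 k t
      rw [pow_zero, mul_one, zero_mul, pow_zero, mul_one, pow_eq_pow_mod (i * t) hx, ht, pow_one] at hm
      rw [hm]
      refine GoodI.of_conj (y ^ ((p - 1) * m)) ?_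
      have h1 : y ^ ((p - 1) * m) * (x * z ^ m) * (y ^ ((p - 1) * m))⁻¹ = x := by
        rw [mul_inv_eq_iff_eq_mul]
        have h2 := form_mul hyx czx czy 0 ((p - 1) * m) 0 1 0 m
        simp only [pow_zero, pow_one, one_mul, mul_one, zero_add, add_zero] at h2
        rw [h2]
        have h3 : (p - 1) * m + m = p * m := by
          obtain ⟨q, rfl⟩ : ∃ q, p = q + 1 := ⟨p - 1, by have := hp.pos; omega⟩
          rw [Nat.add_sub_cancel]
          ring
        rw [h3, pow_mul z, hz, one_pow, mul_one]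
      rw [h1]
      exact gx
  · obtain ⟨t, -, ht⟩ := Nat.exists_mul_mod_eq_one_of_coprime ((Nat.Prime.coprime_iff_not_dvd hp).2 hj).symm hp.one_lt
    refine GoodI.of_pow t ?_
    obtain ⟨m, hm⟩ := form_pow hyx czx czy i j k t
    rw [pow_eq_pow_mod (j * t) hy, ht, pow_one, pow_eq_pow_mod (i * t) hx] at hm
    rw [hm]
    refine GoodI.of_conj (x ^ m) ?_
    have h1 : x ^ m * (x ^ (i * t % p) * y * z ^ m) * (x ^ m)⁻¹ = x ^ (i * t % p) * y := by
      rw [mul_inv_eq_iff_eq_mul]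
      have h2 := form_mul hyx czx czy m 0 0 (i * t % p) 1 m
      have h3 := form_mul hyx czx czy (i * t % p) 1 0 m 0 0
      simp only [pow_zero, pow_one, one_mul, mul_one, zero_add, add_zero, mul_zero] at h2 h3
      rw [h2, h3, add_comm]
    rw [h1]
    exact gy _ (Nat.mod_lt _ hp.pos)

end form

/-- the elements of order `p`, if `E` is a `p`-subgroup of index prime to `p` -/
theorem goodI_of_sub [Finite T] {p : ℕ} (hp : p.Prime) {E : Subgroup T} (hE : IsPGroup p E) (hi : ¬ p ∣ E.index)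
    (h : ∀ g ∈ E, g ≠ 1 → GoodI g) (g : T) (hg : orderOf g = p) : GoodI g := by
  have : Fact p.Prime := ⟨hp⟩
  refine goodI_of_sylow (hE.toSylow hi) (fun g hg ho => h g hg ?_) g hg
  rintro rfl
  rw [orderOf_one] at ho
  exact hp.one_lt.ne ho

/-- **Sylow subgroup `p²`.** -/
theorem goodI_of_pair_sq [Finite T] {p : ℕ} (hp : p.Prime) {x y : T} (hx : x ^ p = 1) (hy : y ^ p = 1)
    (hxy : x * y = y * x) (hx1 : x ≠ 1) (hyx : y ∉ zpowers x) (h3 : ¬ p ^ 3 ∣ Nat.card T)
    (gx : GoodI x) (gy : ∀ r < p, GoodI (x ^ r * y)) (g : T) (hg : orderOf g = p) : GoodI g := by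
  refine goodI_of_sub hp (Cfsg.Agent.H51.Tools.isPGroup_closure hx hy ?_ ?_ ?_)
    (Cfsg.Agent.H51.Tools.not_dvd_index_sq hp hx hy hxy hx1 hyx h3) (fun g hg hg1 => ?_) g hg
  · rw [commutatorElement_eq_one_iff_mul_comm.2 hxy, one_pow]
  · rw [commutatorElement_eq_one_iff_mul_comm.2 hxy, one_mul, mul_one]
  · rw [commutatorElement_eq_one_iff_mul_comm.2 hxy, one_mul, mul_one]
  · exact goodI_heis hp hx hy (one_pow p) (z := 1) (by rw [mul_one, hxy]) (by rw [one_mul, mul_one])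
      (by rw [one_mul, mul_one]) (fun h => absurd rfl h) gx gy hg hg1

/-- **Sylow subgroup `p^(1+2)`.** -/
theorem goodI_of_pair_cube [Finite T] {p : ℕ} (hp : p.Prime) {x y : T} (hx : x ^ p = 1) (hy : y ^ p = 1)
    (hcx : ⁅x, y⁆ * x = x * ⁅x, y⁆) (hcy : ⁅x, y⁆ * y = y * ⁅x, y⁆) (hc1 : ⁅x, y⁆ ≠ 1)
    (h4 : ¬ p ^ 4 ∣ Nat.card T) (gz : GoodI ⁅x, y⁆) (gx : GoodI x) (gy : ∀ r < p, GoodI (x ^ r * y)) (g : T)
    (hg : orderOf g = p) : GoodI g := by
  have hz := Cfsg.Agent.H51.Tools.pow_comm_eq_one hx hcx hcy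
  refine goodI_of_sub hp (Cfsg.Agent.H51.Tools.isPGroup_closure hx hy hz hcx hcy)
    (Cfsg.Agent.H51.Tools.not_dvd_index_extra hp hx hy hcx hcy hc1 h4) (fun g hg hg1 => ?_) g hg
  have cx : Commute ⁅x, y⁆ x := hcx
  have cy : Commute ⁅x, y⁆ y := hcy
  refine goodI_heis hp hx hy (z := ⁅x, y⁆⁻¹) (by rw [inv_pow, hz, inv_one]) ?_ cx.inv_left.eq cy.inv_left.eq
    (fun _ => GoodI.of_zpowers (h := ⁅x, y⁆) ?_ gz) gx gy hg hg1
  · have h1 : ⁅x, y⁆ * (y * x) = x * y := by rw [commutatorElement_def]; group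
    have h2 : Commute ⁅x, y⁆ (y * x) := cy.mul_right cx
    rw [← h1, h2.eq, mul_assoc, mul_inv_cancel, mul_one]
  · have := inv_mem (mem_zpowers (⁅x, y⁆⁻¹))
    rwa [inv_inv] at this

end Cfsg.Agent.H767.SprHeis
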